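import Mathlib
import Cfsg.Agent.H431.CS.Defs
import Cfsg.Prelude.Def_Classification2

/-!
# S3677: assembly from the rows (helper431)
-/

set_option autoImplicit false

namespace Cfsg.Agent.H431.CS

open Cfsg

universe u v

theorem index_cent_congr {A : Type u} [Group A] [Finite A] {B : Type v} [Group B] [Finite B] (e : A ≃* B) (g : A) :
    (Subgroup.centralizer ({g} : Set A)).index = (Subgroup.centralizer ({e g} : Set B)).index := by
  have h1 := (Subgroup.centralizer ({g} : Set A)).card_mul_index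
  have h2 := (Subgroup.centralizer ({e g} : Set B)).card_mul_index
  rw [← card_cent_congr e g, ← Nat.card_congr e.toEquiv, ← h1] at h2
  exact (Nat.eq_of_mul_eq_mul_left Nat.card_pos h2).symm

theorem range_index_congr {A : Type u} [Group A] [Finite A] {B : Type v} [Group B] [Finite B] (e : A ≃* B) :
    Set.range (fun g : A => (Subgroup.centralizer ({g} : Set A)).index) =
      Set.range (fun g : B => (Subgroup.centralizer ({g} : Set B)).index) := by
  apply Set.Subset.antisymm
  · rintro _ ⟨g, rfl⟩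
    exact ⟨e g, (index_cent_congr e g).symm⟩
  · rintro _ ⟨g, rfl⟩
    exact ⟨e.symm g, (index_cent_congr e.symm g).symm⟩

theorem range_index_subset {A : Type u} [Group A] [Finite A] {B : Type v} [Group B] [Finite B]
    (hc : Nat.card A = Nat.card B) (hco : H370.AAM.Co A = H370.AAM.Co B) :
    Set.range (fun g : A => (Subgroup.centralizer ({g} : Set A)).index) ⊆
      Set.range (fun g : B => (Subgroup.centralizer ({g} : Set B)).index) := by
  rintro _ ⟨g, rfl⟩
  obtain ⟨s, hs⟩ : Nat.card (Subgroup.centralizer ({g} : Set A)) ∈ H370.AAM.Co B := hco ▸ ⟨g, rfl⟩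
  refine ⟨s, ?_⟩
  have h1 := (Subgroup.centralizer ({g} : Set A)).card_mul_index
  have h2 := (Subgroup.centralizer ({s} : Set B)).card_mul_index
  dsimp only at hs ⊢
  rw [hs, ← hc, ← h1] at h2
  exact Nat.eq_of_mul_eq_mul_left Nat.card_pos h2

/-- the index form of the hypothesis -/
theorem Same.cs {G : Type u} [Group G] [Finite G] {S : Type v} [Group S] [Finite S] (h : Same G S) :
    Set.range (fun g : G => (Subgroup.centralizer ({g} : Set G)).index) =
      Set.range (fun g : S => (Subgroup.centralizer ({g} : Set S)).index) :=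
  Set.Subset.antisymm (range_index_subset h.card h.co) (range_index_subset h.card.symm h.co.symm)

/-- the rows of S3677 -/
structure Rows : Prop where
  same_order : ∀ (G : Type u) [Group G] [Finite G] [IsSimpleGroup G] (M : Type v) [Group M] [Finite M] [IsSimpleGroup M],
      Nat.card G = Nat.card M → Nonempty (G ≃* M) ∨
      ((Nonempty (G ≃* ↥(alternatingGroup (Fin 8))) ∧ ∃ (F : Type) (_ : Field F) (_ : Fintype F),
        Fintype.card F = 4 ∧ Nonempty (M ≃* Matrix.ProjectiveSpecialLinearGroup (Fin 3) F)) ∨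
      (Nonempty (M ≃* ↥(alternatingGroup (Fin 8))) ∧ ∃ (F : Type) (_ : Field F) (_ : Fintype F),
        Fintype.card F = 4 ∧ Nonempty (G ≃* Matrix.ProjectiveSpecialLinearGroup (Fin 3) F))) ∨
      (∃ (F : Type) (_ : Field F) (_ : Fintype F) (n : ℕ), Odd (Fintype.card F) ∧ 3 ≤ n ∧
        ((Nonempty (G ≃* Cfsg.POmega F (Cfsg.quadFormOdd n F)) ∧ Nonempty (M ≃* Cfsg.PSp n F)) ∨
         (Nonempty (M ≃* Cfsg.POmega F (Cfsg.quadFormOdd n F)) ∧ Nonempty (G ≃* Cfsg.PSp n F))))
  alt : ∀ (n : ℕ) (G : Type u) [Group G] [Finite G], Nat.card G = Nat.card (alternatingGroup (Fin n)) →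
    Set.range (fun g : G => (Subgroup.centralizer ({g} : Set G)).index) =
      Set.range (fun g : (alternatingGroup (Fin n)) =>
        (Subgroup.centralizer ({g} : Set (alternatingGroup (Fin n)))).index) →
    Nonempty (G ≃* alternatingGroup (Fin n))
  psl_two : ∀ (G : Type u) [Group G] [Finite G] (F : Type) [Field F] [Fintype F], 4 ≤ Fintype.card F →
    Same G (Matrix.ProjectiveSpecialLinearGroup (Fin 2) F) →
    Nonempty (G ≃* Matrix.ProjectiveSpecialLinearGroup (Fin 2) F)
  psl_three : ∀ (G : Type u) [Group G] [Finite G] (F : Type) [Field F] [Fintype F],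
    Same G (Matrix.ProjectiveSpecialLinearGroup (Fin 3) F) → IsSimpleGroup G
  psl : ∀ (G : Type u) [Group G] [Finite G] (F : Type) [Field F] [Fintype F] (n : ℕ), 4 ≤ n →
    Same G (Matrix.ProjectiveSpecialLinearGroup (Fin n) F) → IsSimpleGroup G
  psu_three : ∀ (G : Type u) [Group G] [Finite G] (F : Type) [Field F] [Fintype F] (q : ℕ),
    Fintype.card F = q ^ 2 → 3 ≤ q → Same G (PSU 3 F q) → IsSimpleGroup G
  psu : ∀ (G : Type u) [Group G] [Finite G] (F : Type) [Field F] [Fintype F] (n q : ℕ),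
    Fintype.card F = q ^ 2 → 4 ≤ n → Same G (PSU n F q) → IsSimpleGroup G
  psp_four : ∀ (G : Type u) [Group G] [Finite G] (F : Type) [Field F] [Fintype F],
    3 ≤ Fintype.card F → Same G (PSp 2 F) → IsSimpleGroup G
  psp : ∀ (G : Type u) [Group G] [Finite G] (F : Type) [Field F] [Fintype F] (n : ℕ), 3 ≤ n →
    Same G (PSp n F) → IsSimpleGroup G
  odd : ∀ (G : Type u) [Group G] [Finite G] (F : Type) [Field F] [Fintype F] (n : ℕ), 3 ≤ n →
    Odd (Fintype.card F) → Same G (POmega F (quadFormOdd n F)) → IsSimpleGroup G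
  minus : ∀ (G : Type u) [Group G] [Finite G] (F : Type) [Field F] [Fintype F] (n : ℕ) (a b : F), 4 ≤ n →
    (∀ z₁ z₂ : F, z₁ ^ 2 + a * z₁ * z₂ + b * z₂ ^ 2 = 0 → z₁ = 0 ∧ z₂ = 0) →
    Same G (POmega F (quadFormMinus (n - 1) F a b)) → IsSimpleGroup G
  plus : ∀ (G : Type u) [Group G] [Finite G] (F : Type) [Field F] [Fintype F] (n : ℕ), 4 ≤ n →
    Same G (POmega F (quadFormPlus n F)) → IsSimpleGroup G
  exc : ∀ (G : Type u) [Group G] [Finite G] (S : Type v) [Group S] [Finite S] [IsSimpleGroup S],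
    ¬ IsMulCommutative S → IsExceptionalLieType S → Same G S → Nonempty (G ≃* S)
  spor : ∀ (G : Type u) [Group G] [Finite G] (S : Type v) [Group S] [Finite S] [IsSimpleGroup S],
    IsSporadicGroup S → Same G S → Nonempty (G ≃* S)
  sepBC : ∀ (F : Type) [Field F] [Fintype F] (n : ℕ), 3 ≤ n → Odd (Fintype.card F) →
    H370.AAM.Co (PSp n F) ≠ H370.AAM.Co (POmega F (quadFormOdd n F))
  sepL : ∀ (F : Type) [Field F] [Fintype F], Fintype.card F = 4 →
    H370.AAM.Co (Matrix.ProjectiveSpecialLinearGroup (Fin 3) F) ≠ H370.AAM.Co (alternatingGroup (Fin 8))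

/-- a simple group with the order and the class sizes of `S` is isomorphic to `S` -/
theorem of_simple
    (hso : ∀ (G : Type u) [Group G] [Finite G] [IsSimpleGroup G] (M : Type v) [Group M] [Finite M] [IsSimpleGroup M],
      Nat.card G = Nat.card M → Nonempty (G ≃* M) ∨
      ((Nonempty (G ≃* ↥(alternatingGroup (Fin 8))) ∧ ∃ (F : Type) (_ : Field F) (_ : Fintype F),
        Fintype.card F = 4 ∧ Nonempty (M ≃* Matrix.ProjectiveSpecialLinearGroup (Fin 3) F)) ∨
      (Nonempty (M ≃* ↥(alternatingGroup (Fin 8))) ∧ ∃ (F : Type) (_ : Field F) (_ : Fintype F),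
        Fintype.card F = 4 ∧ Nonempty (G ≃* Matrix.ProjectiveSpecialLinearGroup (Fin 3) F))) ∨
      (∃ (F : Type) (_ : Field F) (_ : Fintype F) (n : ℕ), Odd (Fintype.card F) ∧ 3 ≤ n ∧
        ((Nonempty (G ≃* Cfsg.POmega F (Cfsg.quadFormOdd n F)) ∧ Nonempty (M ≃* Cfsg.PSp n F)) ∨
         (Nonempty (M ≃* Cfsg.POmega F (Cfsg.quadFormOdd n F)) ∧ Nonempty (G ≃* Cfsg.PSp n F)))))
    (sepBC : ∀ (F : Type) [Field F] [Fintype F] (n : ℕ), 3 ≤ n → Odd (Fintype.card F) →
      H370.AAM.Co (PSp n F) ≠ H370.AAM.Co (POmega F (quadFormOdd n F)))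
    (sepL : ∀ (F : Type) [Field F] [Fintype F], Fintype.card F = 4 →
      H370.AAM.Co (Matrix.ProjectiveSpecialLinearGroup (Fin 3) F) ≠ H370.AAM.Co (alternatingGroup (Fin 8)))
    {G : Type u} [Group G] [Finite G] [IsSimpleGroup G] {S : Type v} [Group S] [Finite S] [IsSimpleGroup S]
    (h : Same G S) : Nonempty (G ≃* S) := by
  rcases hso G S h.card with h1 | (⟨⟨e⟩, F, _, _, hF, ⟨e'⟩⟩ | ⟨⟨e⟩, F, _, _, hF, ⟨e'⟩⟩) |
      ⟨F, _, _, n, hodd, hn, h1⟩
  · exact h1
  · exact absurd (((co_congr e').symm.trans h.co.symm).trans (co_congr e)) (sepL F hF)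
  · exact absurd (((co_congr e').symm.trans h.co).trans (co_congr e)) (sepL F hF)
  · rcases h1 with ⟨⟨e⟩, ⟨e'⟩⟩ | ⟨⟨e⟩, ⟨e'⟩⟩
    · exact absurd (((co_congr e').symm.trans h.co.symm).trans (co_congr e)) (sepBC F n hn hodd)
    · exact absurd (((co_congr e').symm.trans h.co).trans (co_congr e)) (sepBC F n hn hodd)

/-- **The assembly.** -/
theorem Rows.main (R : Rows.{u, v}) {S : Type v} [Group S] [Finite S] [IsSimpleGroup S] (hna : ¬ IsMulCommutative S)
    (hk : IsKnownSimple' S) {G : Type u} [Group G] [Finite G] (hcard : Nat.card G = Nat.card S)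
    (hcs : Set.range (fun g : G => (Subgroup.centralizer ({g} : Set G)).index) =
      Set.range (fun g : S => (Subgroup.centralizer ({g} : Set S)).index)) : Nonempty (G ≃* S) := by
  have h : Same G S := Same.of_cs hcard hcs
  have fin : IsSimpleGroup G → Nonempty (G ≃* S) := fun _ => of_simple R.same_order R.sepBC R.sepL h
  rcases hk with h1 | h1 | h1 | h1 | h1 | h1 | h1 | h1 | h1 | h1
  · exfalso
    apply hna
    have hp : (Nat.card S).Prime := h1
    have := Fact.mk hp
    have hc : IsCyclic S := isCyclic_of_prime_card rfl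
    exact IsCyclic.isMulCommutative
  · obtain ⟨n, hn, ⟨e⟩⟩ := h1
    have h2 : Nat.card G = Nat.card (alternatingGroup (Fin n)) := hcard.trans (Nat.card_congr e.toEquiv)
    have h3 := (h.congr e).co
    have h4 : Set.range (fun g : G => (Subgroup.centralizer ({g} : Set G)).index) =
        Set.range (fun g : (alternatingGroup (Fin n)) =>
          (Subgroup.centralizer ({g} : Set (alternatingGroup (Fin n)))).index) := by
      rw [hcs]
      exact range_index_congr e
    obtain ⟨e'⟩ := R.alt n G h2 h4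
    exact ⟨e'.trans e.symm⟩
  · obtain ⟨F, _, _, n, hn, hn2, ⟨e⟩⟩ := h1
    rcases (by omega : n = 2 ∨ n = 3 ∨ 4 ≤ n) with rfl | rfl | h4
    · obtain ⟨e'⟩ := R.psl_two G F (hn2 rfl) (h.congr e)
      exact ⟨e'.trans e.symm⟩
    · exact fin (R.psl_three G F (h.congr e))
    · exact fin (R.psl G F n h4 (h.congr e))
  · obtain ⟨F, _, _, m, hm, hm2, ⟨e⟩⟩ := h1
    rcases (by omega : m = 2 ∨ 3 ≤ m) with rfl | h3
    · exact fin (R.psp_four G F (hm2 rfl) (h.congr e))
    · exact fin (R.psp G F m h3 (h.congr e))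
  · obtain ⟨F, _, _, n, q, hF, hn, hnq, ⟨e⟩⟩ := h1
    rcases (by omega : n = 3 ∨ 4 ≤ n) with rfl | h4
    · have hq : 2 ≤ q := by
        have h2 : 1 < Fintype.card F := Fintype.one_lt_card
        rw [hF] at h2
        by_contra hcon
        have h3 : q = 0 ∨ q = 1 := by omega
        rcases h3 with rfl | rfl <;> norm_num at h2
      have hq2 : q ≠ 2 := fun hq2 => hnq ⟨rfl, hq2⟩
      exact fin (R.psu_three G F q hF (by omega) (h.congr e))
    · exact fin (R.psu G F n q hF h4 (h.congr e))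
  · obtain ⟨F, _, _, m, hm, hodd, ⟨e⟩⟩ := h1
    exact fin (R.odd G F m hm hodd (h.congr e))
  · obtain ⟨F, _, _, m, hm, ⟨e⟩⟩ := h1
    exact fin (R.plus G F m hm (h.congr e))
  · obtain ⟨F, _, _, m, a, b, hm, hab, ⟨e⟩⟩ := h1
    exact fin (R.minus G F m a b hm hab (h.congr e))
  · exact R.exc G S hna h1 h
  · exact R.spor G S h1 h

end Cfsg.Agent.H431.CS
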